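import Cfsg.Agent.Lib.Chevalley.Homocyclic.Abelian
import Cfsg.Agent.Lib.Chevalley.Order
import Cfsg.Agent.Lib.Chevalley.TorusCard
import Cfsg.Agent.Lib.KnownSimple.HomocyclicSylow

/-!
Sylow subgroups of Chevalley groups for primes not dividing `q` or the order of the Weyl group: they
embed in the split torus of the group over an extension field, where a single Weyl element turns
the Frobenius map into the `q`th power.
-/

set_option autoImplicit false
set_option linter.unusedSectionVars false
set_option linter.unusedSimpArgs false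

namespace CfsgLib.Chevalley.Homocyclic

open Cfsg.Lie CfsgLib.KnownSimple.HomocyclicSylow

variable {D : ChevalleyDatum} {A : Aux}

/-- The matrix of a permutation of the roots in the fundamental roots. -/
noncomputable def wMat (hC : Cert D A) (σ : Equiv.Perm (Fin D.nroots)) : Matrix (Fin D.rank) (Fin D.rank) ℤ :=
  Matrix.of fun i j => crd A i (σ (smp hC j))

theorem wMat_mul (h : Full D A) {σ τ : Equiv.Perm (Fin D.nroots)} (hσ : σ ∈ wSet h.cert D.rank) :
    wMat h.cert (σ * τ) = wMat h.cert σ * wMat h.cert τ := by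
  obtain ⟨l, -, rfl⟩ := mem_wSet.1 hσ
  ext i j
  rw [Matrix.mul_apply]
  show crd A i (wPerm h.cert l (τ (smp h.cert j))) = _
  rw [wPerm_lin h l i.isLt]
  exact Finset.sum_congr rfl fun k _ => mul_comm _ _

theorem wMat_one (hC : Cert D A) : wMat hC 1 = 1 := by
  ext i j
  simp [wMat, smp, crd_simple hC i.isLt j.isLt, Matrix.one_apply, Fin.ext_iff]

theorem wSet_mul (h : Full D A) {σ τ : Equiv.Perm (Fin D.nroots)} (hσ : σ ∈ wSet h.cert D.rank)
    (hτ : τ ∈ wSet h.cert D.rank) : σ * τ ∈ wSet h.cert D.rank := by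
  obtain ⟨l, -, rfl⟩ := mem_wSet.1 hσ
  obtain ⟨l', -, rfl⟩ := mem_wSet.1 hτ
  rw [← wPerm_append]
  exact mem_wSet_rank h.cert _

theorem wSet_pow (h : Full D A) {σ : Equiv.Perm (Fin D.nroots)} (hσ : σ ∈ wSet h.cert D.rank) :
    ∀ k, σ ^ k ∈ wSet h.cert D.rank
  | 0 => by simpa using mem_wSet_rank h.cert []
  | k + 1 => by rw [pow_succ]; exact wSet_mul h (wSet_pow h hσ k) hσ

theorem wMat_pow (h : Full D A) {σ : Equiv.Perm (Fin D.nroots)} (hσ : σ ∈ wSet h.cert D.rank) :
    ∀ k, wMat h.cert (σ ^ k) = wMat h.cert σ ^ k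
  | 0 => by rw [pow_zero, pow_zero, wMat_one]
  | k + 1 => by rw [pow_succ, pow_succ, wMat_mul h (wSet_pow h hσ k), wMat_pow h hσ k]

theorem orderOf_dvd_card (h : Full D A) {σ : Equiv.Perm (Fin D.nroots)}
    (hσ : σ ∈ wSet h.cert D.rank) : orderOf σ ∣ (wSet h.cert D.rank).card := by
  let W : Subgroup (Equiv.Perm (Fin D.nroots)) :=
    { carrier := wSet h.cert D.rank
      one_mem' := by simpa using mem_wSet_rank h.cert []
      mul_mem' := fun ha hb => wSet_mul h ha hb
      inv_mem' := fun {x} hx => by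
        rw [Finset.mem_coe] at hx ⊢
        obtain ⟨k, hk⟩ : x⁻¹ ∈ Submonoid.powers x :=
          mem_powers_iff_mem_zpowers.2 ((Subgroup.zpowers x).inv_mem (Subgroup.mem_zpowers x))
        rw [← hk]; exact wSet_pow h hx k }
  have hW : Nat.card W = (wSet h.cert D.rank).card := by
    exact Nat.card_eq_finsetCard (wSet h.cert D.rank)
  rw [← hW]
  exact Subgroup.orderOf_dvd_natCard W hσ

theorem chi_eq (h : Full D A) {F : Type*} [Field F] (c : Fin D.rank → Fˣ) (s : Fin D.nroots) :
    chi D s c = ∏ j : Fin D.rank, chi D (D.simple j) c ^ crd A j s := by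
  show ∏ k : Fin D.rank, c k ^ D.cartan k s = _
  rw [Finset.prod_congr rfl fun k _ => by rw [cartan_eq_sum h k s, zpow_sum'], Finset.prod_comm]
  refine Finset.prod_congr rfl fun j _ => ?_
  show ∏ k : Fin D.rank, c k ^ (crd A j s * D.cartan k (D.simple j)) =
    (∏ k : Fin D.rank, c k ^ D.cartan k (D.simple j)) ^ crd A j s
  rw [← Finset.prod_zpow]
  exact Finset.prod_congr rfl fun k _ => by rw [← zpow_mul, mul_comm]

theorem torusHom_eq_of_chi {F : Type*} [Field F] {c c' : Fin D.rank → Fˣ}
    (e : ∀ s : Fin D.nroots, chi D s c = chi D s c') : torusHom D F c = torusHom D F c' := by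
  refine Units.ext ?_
  rw [coe_torusHom, coe_torusHom]
  congr 1
  funext a
  rcases a with j | s
  · rfl
  · simp [e]

theorem conj_torus_chi {hC : Cert D A} {F : Type*} [Field F] {n : GL D.Idx F}
    {σ : Equiv.Perm (Fin D.nroots)} {η : Fin D.nroots → F} (hA : Acts hC n σ η)
    {a b : Fin D.rank → Fˣ} (e : n * torusHom D F a * n⁻¹ = torusHom D F b) (s : Fin D.nroots) :
    chi D (σ s) b = chi D s a := by
  have h := congrFun (congrFun (congrArg (fun g : GL D.Idx F => (g : Matrix D.Idx D.Idx F)) (mul_inv_eq_iff_eq_mul.1 e)) (Sum.inr (σ s))) (Sum.inr s)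
  rw [Units.val_mul, Units.val_mul, coe_torusHom, coe_torusHom, Matrix.mul_diagonal,
    Matrix.diagonal_mul, hA.col, if_pos rfl, Sum.elim_inr, Sum.elim_inr, mul_comm] at h
  exact Units.ext (mul_right_cancel₀ (hA.ne_zero s) h).symm

/-- A single monomial element realises all the conjugations by a given element inside the torus. -/
theorem exists_monomial_fusion (h : Full D A) {F : Type*} [Field F] {g : GL D.Idx F} (hg : g ∈ D.group F) :
    ∃ σ ∈ wSet h.cert D.rank, ∀ a b : Fin D.rank → Fˣ,
      g * torusHom D F a * g⁻¹ = torusHom D F b → ∀ s : Fin D.nroots, chi D (σ s) b = chi D s a := by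
  obtain ⟨u, hu, n, hn, σ, η, hA, u', hu', rfl⟩ := exists_canonical h hg
  obtain ⟨l₀, t₀, ht₀, hn₀⟩ := (mem_monomial_iff h).1 hn
  obtain ⟨c₀, hc₀⟩ : t₀ ∈ (torusHom D F).range := by rwa [← diagonalSubgroup_eq_range h]
  obtain ⟨η₀, hη₀⟩ := acts_nW (F := F) h l₀
  have hσ : σ = wPerm h.cert l₀ := by
    have h1 := hη₀.mul (acts_torus h.cert c₀)
    rw [mul_one, hc₀, ← hn₀] at h1
    exact hA.perm_eq h1
  refine ⟨σ, hσ ▸ mem_wSet_rank h.cert l₀, fun a b hc => conj_torus_chi hA ?_⟩
  set h₁ := torusHom D F a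
  set h₂ := torusHom D F b
  have h1 : h₁ ∈ D.diagonalSubgroup F := torus_mem_diagonal h a
  have h2 : h₂ ∈ D.diagonalSubgroup F := torus_mem_diagonal h b
  have hc' := mul_inv_eq_iff_eq_mul.1 hc
  have e : (h₂ * u * h₂⁻¹) * (h₂ * n) * u' = u * (n * h₁) * (h₁⁻¹ * u' * h₁) := by
    rw [show (h₂ * u * h₂⁻¹) * (h₂ * n) * u' = h₂ * (u * n * u') by group, ← hc']
    group
  have A1 := (acts_torus (F := F) h.cert b).mul hA
  have A2 := hA.mul (acts_torus (F := F) h.cert a)
  rw [one_mul] at A1
  rw [mul_one] at A2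
  have hu'' : h₁⁻¹ * u' * h₁ ∈ rootsU D F (invSet D σ) := by
    have := diagonal_conj_rootsU h _ _ (Subgroup.inv_mem _ h1) _ hu'
    rwa [inv_inv] at this
  obtain ⟨-, e2, -⟩ := canonical_unique h (diagonal_conj_rootsU h _ _ h2 _ hu) hu
    (Subgroup.mul_mem _ (diagonal_le_monomial h2) hn)
    (Subgroup.mul_mem _ hn (diagonal_le_monomial h1)) A1 A2 hu' hu'' e
  exact mul_inv_eq_iff_eq_mul.2 e2.symm

section map

variable {F K : Type*} [Field F] [Field K]

/-- Applying a homomorphism of fields to the entries. -/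
noncomputable def glMap (D : ChevalleyDatum) (f : F →+* K) : GL D.Idx F →* GL D.Idx K :=
  Units.map f.mapMatrix.toMonoidHom

theorem glMap_apply (f : F →+* K) (g : GL D.Idx F) (a b : D.Idx) :
    (glMap D f g : Matrix D.Idx D.Idx K) a b = f ((g : Matrix D.Idx D.Idx F) a b) := rfl

theorem glMap_injective (f : F →+* K) : Function.Injective (glMap D f) := fun _ _ e =>
  Units.ext (Matrix.ext fun a b => f.injective (congrFun (congrFun (congrArg (fun g : GL D.Idx K => (g : Matrix D.Idx D.Idx K)) e) a) b))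

theorem map_xMat (f : F →+* K) (r : Fin D.nroots) (t : F) :
    (D.xMat F r t).map f = D.xMat K r (f t) := by
  ext row col
  rw [Matrix.map_apply]
  simp only [ChevalleyDatum.xMat, Matrix.of_apply]
  rcases col with i | s <;> rcases row with i' | u <;> dsimp only <;> (try split_ifs) <;>
    simp [map_list_sum, List.map_map, Function.comp_def]

theorem glMap_group (f : F →+* K) {g : GL D.Idx F} (hg : g ∈ D.group F) :
    glMap D f g ∈ D.group K := by
  suffices h : D.group F ≤ (D.group K).comap (glMap D f) from h hg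
  refine (Subgroup.closure_le _).2 ?_
  rintro x ⟨r, t, hx⟩
  refine Subgroup.subset_closure ⟨r, f t, ?_⟩
  rw [← map_xMat f r t, ← hx]
  rfl

theorem glMap_torus (f : F →+* K) (c : Fin D.rank → Fˣ) :
    glMap D f (torusHom D F c) = torusHom D K fun k => Units.map f.toMonoidHom (c k) := by
  refine Units.ext (Matrix.ext fun a b => ?_)
  rw [glMap_apply, coe_torusHom, coe_torusHom, Matrix.diagonal_apply, Matrix.diagonal_apply]
  split_ifs
  · rcases a with j | s
    · simp
    · simp [chi, Units.coe_prod, Units.val_zpow_eq_zpow_val, map_prod, map_zpow₀]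
  · exact map_zero f

end map

variable {r : ℕ} [hr : Fact r.Prime]

/-- The `r`-th roots of unity of a finite field with enough of them. -/
theorem exists_rootsHom {K : Type*} [Field K] [Finite K] (hrK : r ∣ Nat.card Kˣ) :
    ∃ z : Multiplicative (ZMod r) →* Kˣ, Function.Injective z ∧ ∀ u : Kˣ, u ^ r = 1 → u ∈ z.range := by
  obtain ⟨z, hz⟩ := exists_hom hrK
  refine ⟨z, hz, fun u hu => ?_⟩
  have : NeZero r := ⟨hr.out.ne_zero⟩
  classical
  have : Fintype K := Fintype.ofFinite K
  have hle : (Finset.univ.filter fun v : Kˣ => v ^ r = 1).card ≤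
      (Finset.univ.image fun i : Multiplicative (ZMod r) => z i).card := by
    rw [Finset.card_image_of_injective _ hz, Finset.card_univ, Fintype.card_multiplicative, ZMod.card]
    have := IsCyclic.card_pow_eq_one_le (α := Kˣ) hr.out.pos
    simpa using this
  have hsub : (Finset.univ.image fun i : Multiplicative (ZMod r) => z i) ⊆
      Finset.univ.filter fun v : Kˣ => v ^ r = 1 := by
    intro v hv
    obtain ⟨i, -, rfl⟩ := Finset.mem_image.1 hv
    simp only [Finset.mem_filter, Finset.mem_univ, true_and, ← map_pow]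
    rw [show i ^ r = 1 by
      have := pow_card_eq_one (x := i)
      rwa [Fintype.card_multiplicative, ZMod.card] at this, map_one]
  have hu' : u ∈ Finset.univ.image fun i : Multiplicative (ZMod r) => z i := by
    rw [Finset.eq_of_subset_of_card_le hsub hle]; simpa using hu
  obtain ⟨i, -, hi⟩ := Finset.mem_image.1 hu'
  exact ⟨i, hi⟩

/-- The orders of the group and of its split torus up to a factor prime to `r`. -/
def CardData (D : ChevalleyDatum) (degs : List ℕ) (r : ℕ) (K : Type*) [Field K] [Fintype K] : Prop :=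
  ∃ z : ℕ, ¬ r ∣ z ∧
    z * Nat.card (D.group K) =
      Fintype.card K ^ (D.nroots / 2) * (degs.map fun e => Fintype.card K ^ e - 1).prod ∧
    z * Nat.card (D.diagonalSubgroup K) = (Fintype.card K - 1) ^ D.rank

theorem prod_sub_one_ne_zero {Q : ℕ} (hQ : 2 ≤ Q) {degs : List ℕ} (h0 : ∀ e ∈ degs, 0 < e) :
    (degs.map fun e => Q ^ e - 1).prod ≠ 0 := by
  rw [Ne, List.prod_eq_zero_iff, List.mem_map]
  rintro ⟨e, he, h⟩
  have := Nat.one_lt_pow (h0 e he).ne' (show 1 < Q by omega)
  omega

theorem valuation_prod {Q : ℕ} (hQ : 2 ≤ Q) (hrQ : ¬ r ∣ Q) : ∀ {degs : List ℕ},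
    (∀ e ∈ degs, 0 < e ∧ ¬ r ∣ e) → (degs.map fun e => Q ^ e - 1).prod.factorization r =
      (degs.filter fun e => orderOf (Q : ZMod r) ∣ e).length * cycExp Q r
  | [], _ => by simp
  | e :: l, h => by
    have he := h e List.mem_cons_self
    have hl : ∀ e ∈ l, 0 < e ∧ ¬ r ∣ e := fun x hx => h x (List.mem_cons_of_mem _ hx)
    have h1 : Q ^ e - 1 ≠ 0 := by
      have := Nat.one_lt_pow he.1.ne' (show 1 < Q by omega)
      omega
    rw [List.map_cons, List.prod_cons, Nat.factorization_mul h1 (prod_sub_one_ne_zero hQ fun x hx => (hl x hx).1),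
      Finsupp.add_apply, valuation_pow hQ hrQ he.1 he.2, valuation_prod hQ hrQ hl, List.filter_cons]
    split_ifs with h2 h3 h3 <;> simp_all [add_mul, add_comm]

theorem valuation_group {degs : List ℕ} (h0 : ∀ e ∈ degs, 0 < e ∧ ¬ r ∣ e)
    {K : Type*} [Field K] [Fintype K] (hrK : ¬ r ∣ Fintype.card K) (hd : CardData D degs r K) :
    (Nat.card (D.group K)).factorization r =
      (degs.filter fun e => orderOf (Fintype.card K : ZMod r) ∣ e).length * cycExp (Fintype.card K) r := by
  obtain ⟨z, hz, e1, -⟩ := hd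
  have hQ : 2 ≤ Fintype.card K := Fintype.one_lt_card
  have hz0 : z ≠ 0 := fun h => hz (h ▸ dvd_zero r)
  have h := congrArg (fun n => n.factorization r) e1
  simp only [Nat.factorization_mul hz0 Nat.card_pos.ne',
    Nat.factorization_mul (pow_ne_zero _ (show Fintype.card K ≠ 0 by omega))
      (prod_sub_one_ne_zero hQ fun e he => (h0 e he).1),
    Finsupp.add_apply, Nat.factorization_eq_zero_of_not_dvd hz, zero_add,
    Nat.factorization_eq_zero_of_not_dvd (fun h => hrK (hr.out.dvd_of_dvd_pow h)),
    valuation_prod hQ hrK h0] at h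
  exact h

/-- The homocyclic Sylow subgroup. -/
theorem main (h : Full D A) {degs : List ℕ} (hlen : degs.length = D.rank)
    (hpos : ∀ e ∈ degs, 0 < e) (hWcard : (wSet h.cert D.rank).card = degs.prod)
    {F : Type*} [Field F] [Fintype F] {q : ℕ} (hq : Fintype.card F = q) (hrq : ¬ r ∣ q) (hrW : ¬ r ∣ degs.prod)
    (hdata : ∀ (K : Type) [Field K] [Fintype K], CardData D degs r K)
    (hdataF : CardData D degs r F)
    (hk : ∀ σ ∈ wSet h.cert D.rank, 0 < (degs.filter fun e => orderOf (q : ZMod r) ∣ e).length →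
      Module.finrank (ZMod r) (Module.End.eigenspace
        (Matrix.toLin' ((wMat h.cert σ).transpose.map (Int.cast : ℤ → ZMod r))) (q : ZMod r)) ≤
        (degs.filter fun e => orderOf (q : ZMod r) ∣ e).length)
    (P : Sylow r (D.group F)) :
    Nonempty (↥(P : Subgroup (D.group F)) ≃*
      (Fin (degs.filter fun e => orderOf (q : ZMod r) ∣ e).length → Multiplicative (ZMod (r ^ cycExp q r)))) := by
  classical
  have hq2 : 2 ≤ q := hq ▸ Fintype.one_lt_card
  have h0 : ∀ e ∈ degs, 0 < e ∧ ¬ r ∣ e := fun e he =>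
    ⟨hpos e he, fun hre => hrW (hre.trans (List.dvd_prod he))⟩
  set d := orderOf (q : ZMod r) with hd
  set a := (degs.filter fun e => d ∣ e).length with ha
  have hd0 : 0 < d := order_pos hrq
  have hμ : 0 < cycExp q r := by
    rw [← valuation_order hq2 hrq]
    exact hr.out.factorization_pos_of_dvd
      (Nat.sub_ne_zero_of_lt (Nat.one_lt_pow hd0.ne' (show 1 < q by omega)))
      ((cast_pow_sub_one_eq_zero_iff (by omega) d).2 dvd_rfl)
  have hPcard : Nat.card (P : Subgroup (D.group F)) = r ^ (a * cycExp q r) := by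
    rw [P.card_eq_multiplicity, valuation_group h0 (hq ▸ hrq) hdataF, hq]
  -- the extension field
  set p := ringChar F
  have : Fact p.Prime := ⟨CharP.char_is_prime F p⟩
  have : NeZero d := ⟨hd0.ne'⟩
  let K := FiniteField.Extension F p d
  have : Finite K := Module.finite_of_finite F
  let hKf : Fintype K := Fintype.ofFinite K
  have hK : Fintype.card K = q ^ d := by
    rw [← Nat.card_eq_fintype_card, FiniteField.natCard_extension, Nat.card_eq_fintype_card, hq]
  have hrK : ¬ r ∣ Fintype.card K := fun hh => hrq (hr.out.dvd_of_dvd_pow (hK ▸ hh))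
  have hK1 : orderOf (Fintype.card K : ZMod r) = 1 := by
    rw [hK, Nat.cast_pow, pow_orderOf_eq_one, orderOf_one]
  -- the map to the torus over the extension
  set T := (D.diagonalSubgroup K).subgroupOf (D.group K)
  have hT : (Nat.card T).factorization r = (Nat.card (D.group K)).factorization r := by
    obtain ⟨z, hz, -, e2⟩ := hdata K
    have hQ : 2 ≤ Fintype.card K := Fintype.one_lt_card
    have e := congrArg (fun n => n.factorization r) e2
    simp only [Nat.factorization_mul (fun h => hz (h ▸ dvd_zero r) : z ≠ 0) Nat.card_pos.ne',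
      Finsupp.add_apply, Nat.factorization_eq_zero_of_not_dvd hz, zero_add, Nat.factorization_pow,
      Finsupp.smul_apply, smul_eq_mul] at e
    rw [Nat.card_congr (Subgroup.subgroupOfEquivOfLe (diagonal_le_group h.cert)).toEquiv, e,
      valuation_group h0 hrK (hdata K), hK1]
    have hall : (degs.filter fun e => decide (1 ∣ e)) = degs := by simp
    rw [hall, hlen]
    congr 1
    have := valuation_order hQ hrK
    rwa [hK1, pow_one] at this
  obtain ⟨R⟩ : Nonempty (Sylow r T) := inferInstance
  have hR : Nat.card ((R : Subgroup T).map T.subtype) = r ^ (Nat.card (D.group K)).factorization r := by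
    rw [Subgroup.card_map_of_injective T.subtype_injective, R.card_eq_multiplicity, hT]
  let R' : Sylow r (D.group K) := Sylow.ofCard _ hR
  set f : F →+* K := algebraMap F K
  let ι : D.group F →* D.group K :=
    ((glMap D f).comp (D.group F).subtype).codRestrict _ fun x => glMap_group f x.2
  have hιinj : Function.Injective ι := fun x y e =>
    Subtype.ext (glMap_injective f (congrArg Subtype.val e))
  obtain ⟨S, hS⟩ := (P.isPGroup'.map ι).exists_le_sylow
  obtain ⟨g, hg⟩ := MulAction.exists_smul_eq (D.group K) R' S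
  have htorus : ∀ x ∈ (P : Subgroup (D.group F)), ∃ c, (g : GL D.Idx K)⁻¹ * glMap D f x * g = torusHom D K c := by
    intro x hx
    have h1 : ι x ∈ (S : Subgroup (D.group K)) := hS (Subgroup.mem_map_of_mem ι hx)
    rw [← hg] at h1
    obtain ⟨w, hw, e⟩ := h1
    obtain ⟨t, -, rfl⟩ := hw
    have ht : ((t : D.group K) : GL D.Idx K) ∈ D.diagonalSubgroup K := t.2
    obtain ⟨c, hc⟩ : ((t : D.group K) : GL D.Idx K) ∈ (torusHom D K).range := by
      rwa [← diagonalSubgroup_eq_range h]
    refine ⟨c, ?_⟩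
    have e' := congrArg Subtype.val e
    simp only [MulDistribMulAction.toMonoidEnd_apply, MulDistribMulAction.toMonoidHom_apply,
      MulAut.smul_def, MulAut.conj_apply, Subgroup.coe_mul, Subgroup.coe_inv] at e'
    rw [hc, show glMap D f (x : GL D.Idx F) = ((ι x : D.group K) : GL D.Idx K) from rfl, ← e']
    simp [mul_assoc]
  choose! tc htc using htorus
  -- the Frobenius map
  obtain ⟨m, hm⟩ : ∃ m, q = p ^ m := by
    obtain ⟨n, -, hn⟩ := FiniteField.card F p
    exact ⟨n, hq ▸ hn⟩
  have : CharP K p := charP_of_injective_ringHom f.injective p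
  have : ExpChar K p := ExpChar.prime (Fact.out : p.Prime)
  set φ : K →+* K := iterateFrobenius K p m
  have hφ : ∀ y : K, φ y = y ^ q := fun y => by rw [hm]; exact iterateFrobenius_def p m y
  have hfix : ∀ x : GL D.Idx F, glMap D φ (glMap D f x) = glMap D f x := fun x =>
    Units.ext (Matrix.ext fun i j => by
      rw [glMap_apply, glMap_apply, hφ, ← map_pow, ← hq, FiniteField.pow_card])
  obtain ⟨σ, hσ, hfus⟩ := exists_monomial_fusion h (F := K) (g := (g : GL D.Idx K)⁻¹ * glMap D φ g)
    (Subgroup.mul_mem _ (Subgroup.inv_mem _ g.2) (glMap_group φ g.2))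
  have hchi : ∀ x ∈ (P : Subgroup (D.group F)), ∀ s : Fin D.nroots,
      chi D (σ s) (tc x) = chi D s (tc x) ^ q := by
    intro x hx s
    have e : glMap D φ (torusHom D K (tc x)) = torusHom D K (tc x ^ q) := by
      rw [glMap_torus]
      congr 1
      funext k
      exact Units.ext (by simp [hφ])
    rw [← map_pow]
    refine hfus (tc x ^ q) (tc x) ?_ s
    have h2 := htc x hx
    rw [← e, ← h2, map_mul, map_mul, map_inv, hfix]
    group
  -- commutative
  have hcomm : ∀ x y : ↥(P : Subgroup (D.group F)), x * y = y * x := by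
    rintro ⟨x, hx⟩ ⟨y, hy⟩
    refine Subtype.ext (Subtype.ext (glMap_injective f ?_))
    have ex : glMap D f x = g * torusHom D K (tc x) * (g : GL D.Idx K)⁻¹ := by
      rw [← htc x hx]; group
    have ey : glMap D f y = g * torusHom D K (tc y) * (g : GL D.Idx K)⁻¹ := by
      rw [← htc y hy]; group
    simp only [Subgroup.coe_mul, map_mul, ex, ey]
    rw [show ∀ a b : GL D.Idx K, g * a * (g : GL D.Idx K)⁻¹ * (g * b * (g : GL D.Idx K)⁻¹) =
      g * (a * b) * (g : GL D.Idx K)⁻¹ from fun a b => by group]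
    rw [show ∀ a b : GL D.Idx K, g * a * (g : GL D.Idx K)⁻¹ * (g * b * (g : GL D.Idx K)⁻¹) =
      g * (a * b) * (g : GL D.Idx K)⁻¹ from fun a b => by group, ← map_mul, mul_comm, map_mul]
  have hinj : ∀ x ∈ (P : Subgroup (D.group F)), ∀ y ∈ (P : Subgroup (D.group F)),
      torusHom D K (tc x) = torusHom D K (tc y) → x = y := fun x hx y hy e => by
    rw [← htc x hx, ← htc y hy] at e
    exact Subtype.ext (glMap_injective f (mul_left_cancel (mul_right_cancel e)))
  have hpow : ∀ x ∈ (P : Subgroup (D.group F)), ∀ n : ℕ,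
      torusHom D K (tc x) ^ n = (g : GL D.Idx K)⁻¹ * glMap D f ((x ^ n : D.group F) : GL D.Idx F) * g := by
    intro x hx n
    induction n with
    | zero => simp
    | succ n ih =>
      rw [pow_succ, ih, ← htc x hx, pow_succ, Subgroup.coe_mul, map_mul]
      group
  -- exponent
  set e := orderOf σ
  have he : ¬ r ∣ e := fun hh => hrW ((hh.trans (orderOf_dvd_card h hσ)).trans (dvd_of_eq hWcard))
  have he0 : 0 < e := orderOf_pos σ
  have hexp : ∀ x : ↥(P : Subgroup (D.group F)), x ^ r ^ cycExp q r = 1 := by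
    rintro ⟨x, hx⟩
    have hit : ∀ k, ∀ s : Fin D.nroots, chi D ((σ ^ k) s) (tc x) = chi D s (tc x) ^ q ^ k := by
      intro k
      induction k with
      | zero => simp
      | succ k ih =>
        intro s
        rw [pow_succ', Equiv.Perm.mul_apply, hchi x hx, ih, ← pow_mul, pow_succ]
    have h1 : torusHom D K (tc x) ^ (q ^ e - 1) = 1 := by
      rw [← map_pow, ← map_one (torusHom D K)]
      refine torusHom_eq_of_chi fun s => ?_
      rw [map_pow, map_one]
      have h2 := hit e s
      rw [pow_orderOf_eq_one, Equiv.Perm.coe_one, id_eq,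
        ← Nat.sub_add_cancel (Nat.one_le_pow e q (by omega)), pow_succ] at h2
      exact mul_eq_right.1 h2.symm
    have h3 : x ^ (q ^ e - 1) = 1 := by
      rw [hpow x hx] at h1
      refine Subtype.ext (glMap_injective f ?_)
      rw [Subgroup.coe_one, map_one]
      calc _ = (g : GL D.Idx K) * ((g : GL D.Idx K)⁻¹ * glMap D f ((x ^ (q ^ e - 1) : D.group F) : GL D.Idx F) * g) *
            (g : GL D.Idx K)⁻¹ := by group
        _ = 1 := by rw [h1]; group
    obtain ⟨k, hk'⟩ := P.isPGroup' ⟨x, hx⟩
    refine Subtype.ext ?_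
    show x ^ r ^ cycExp q r = 1
    obtain ⟨j, -, hj⟩ := (Nat.dvd_prime_pow hr.out).1
      (orderOf_dvd_of_pow_eq_one (show x ^ r ^ k = 1 from congrArg Subtype.val hk'))
    refine orderOf_dvd_iff_pow_eq_one.1 (hj ▸ pow_dvd_pow r ?_)
    have hne : q ^ e - 1 ≠ 0 := by
      have := Nat.one_lt_pow he0.ne' (show 1 < q by omega); omega
    have := (hr.out.pow_dvd_iff_le_factorization hne).1 (hj ▸ orderOf_dvd_of_pow_eq_one h3)
    rw [valuation_pow hq2 hrq he0 he] at this
    split_ifs at this <;> omega
  -- rank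
  have hrank : Nat.card {x : ↥(P : Subgroup (D.group F)) // x ^ r = 1} ≤ r ^ a := by
    rcases Nat.eq_zero_or_pos a with hz | hapos
    · refine le_trans (Nat.card_le_card_of_injective Subtype.val Subtype.val_injective) ?_
      rw [hPcard, hz, zero_mul]
    refine le_trans ?_ (Nat.pow_le_pow_right hr.out.pos (hk σ hσ hapos))
    set E := Module.End.eigenspace
      (Matrix.toLin' ((wMat h.cert σ).transpose.map (Int.cast : ℤ → ZMod r))) (q : ZMod r)
    rw [show r ^ Module.finrank (ZMod r) E = Nat.card E by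
      rw [Module.natCard_eq_pow_finrank (K := ZMod r), Nat.card_zmod]]
    have hrK' : r ∣ Nat.card Kˣ := by
      rw [Nat.card_units, Nat.card_eq_fintype_card, hK]
      exact (cast_pow_sub_one_eq_zero_iff (by omega) d).2 dvd_rfl
    obtain ⟨z, hzinj, hzr⟩ := exists_rootsHom hrK'
    have hv : ∀ x : {x : ↥(P : Subgroup (D.group F)) // x ^ r = 1}, ∀ j : Fin D.rank,
        chi D (D.simple j) (tc x.1.1) ^ r = 1 := by
      intro x j
      have hx1 : ((x.1.1 : D.group F)) ^ r = 1 := congrArg Subtype.val x.2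
      have h1 : torusHom D K (tc x.1.1) ^ r = 1 := by
        rw [hpow _ x.1.2, hx1]; simp
      rw [← map_pow] at h1 ⊢
      have h2 := congrFun (congrFun (congrArg (fun g : GL D.Idx K => (g : Matrix D.Idx D.Idx K)) h1) (Sum.inr (smp h.cert j))) (Sum.inr (smp h.cert j))
      rw [coe_torusHom, Matrix.diagonal_apply_eq, Sum.elim_inr, Units.val_one, Matrix.one_apply_eq] at h2
      exact Units.ext h2
    choose xi hxi using fun x j => hzr _ (hv x j)
    have hexp' : ∀ x (s : Fin D.nroots), chi D s (tc x.1.1) =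
        z (Multiplicative.ofAdd (∑ i : Fin D.rank, (crd A i s : ZMod r) * Multiplicative.toAdd (xi x i))) := by
      intro x s
      rw [chi_eq h, ofAdd_sum, map_prod]
      refine Finset.prod_congr rfl fun i _ => ?_
      rw [← zsmul_eq_mul, ofAdd_zsmul, map_zpow, ofAdd_toAdd, hxi]
    let Θ : {x : ↥(P : Subgroup (D.group F)) // x ^ r = 1} → E := fun x =>
      ⟨fun j => Multiplicative.toAdd (xi x j), by
        rw [Module.End.mem_eigenspace_iff]
        funext j
        have h1 := hchi _ x.1.2 (smp h.cert j)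
        rw [hexp' x (σ (smp h.cert j)), show ((smp h.cert j : Fin D.nroots) : ℕ) = D.simple j from rfl,
          ← hxi x j, ← map_pow] at h1
        have h2 := congrArg Multiplicative.toAdd (hzinj h1)
        rw [toAdd_ofAdd, toAdd_pow, nsmul_eq_mul] at h2
        simp only [Matrix.toLin'_apply, Matrix.mulVec, dotProduct, Matrix.map_apply,
          Matrix.transpose_apply, wMat, Matrix.of_apply, Pi.smul_apply, smul_eq_mul]
        exact h2⟩
    refine Nat.card_le_card_of_injective Θ fun x y hxy => ?_
    refine Subtype.ext (Subtype.ext (hinj _ x.1.2 _ y.1.2 (torusHom_eq_of_chi fun s => ?_)))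
    rw [hexp' x s, hexp' y s]
    congr 2
    exact Finset.sum_congr rfl fun i _ => by
      rw [show xi x i = xi y i from Multiplicative.toAdd.injective (congrFun (congrArg Subtype.val hxy) i)]
  exact homocyclic hr.out hμ hcomm hexp hPcard hrank

end CfsgLib.Chevalley.Homocyclic
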