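import Mathlib

/-! An abelian `r`-group with exponent, rank and order of a homocyclic one is homocyclic. -/

set_option autoImplicit false

namespace CfsgLib.Chevalley.Homocyclic

theorem homocyclic {P : Type*} [Group P] [Finite P] {r μ a : ℕ} (hr : r.Prime) (hμ : 0 < μ)
    (hcomm : ∀ x y : P, x * y = y * x) (hexp : ∀ x : P, x ^ r ^ μ = 1) (hcard : Nat.card P = r ^ (a * μ))
    (hrank : Nat.card {x : P // x ^ r = 1} ≤ r ^ a) :
    Nonempty (P ≃* (Fin a → Multiplicative (ZMod (r ^ μ)))) := by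
  classical
  letI : CommGroup P := { (inferInstance : Group P) with mul_comm := hcomm }
  obtain ⟨ι, hι, n, hn, ⟨e⟩⟩ := CommGroup.equiv_prod_multiplicative_zmod_of_finite P
  have hdvd : ∀ i, n i ∣ r ^ μ := by
    intro i
    have h := hexp (e.symm (Pi.mulSingle i (Multiplicative.ofAdd 1)))
    rw [← map_pow, ← map_one e.symm] at h
    have h' := congrArg Multiplicative.toAdd (congrFun (e.symm.injective h) i)
    simp only [Pi.pow_apply, Pi.mulSingle_eq_same, Pi.one_apply, toAdd_pow, toAdd_ofAdd, toAdd_one,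
      nsmul_one] at h'
    exact (ZMod.natCast_eq_zero_iff _ _).1 h'
  choose f hf hnf using fun i => (Nat.dvd_prime_pow hr).1 (hdvd i)
  have hf1 : ∀ i, 1 ≤ f i := fun i => Nat.pos_of_ne_zero fun h => by
    have := hn i; rw [hnf, h, pow_zero] at this; omega
  -- many elements of order dividing `r`
  let g : (ι → Fin r) → {x : P // x ^ r = 1} := fun k => ⟨e.symm fun i =>
      Multiplicative.ofAdd ((((k i : ℕ) * r ^ (f i - 1) : ℕ)) : ZMod (n i)), by
    rw [← map_pow, show (fun i => Multiplicative.ofAdd ((((k i : ℕ) * r ^ (f i - 1) : ℕ)) : ZMod (n i))) ^ r = 1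
      from funext fun i => ?_, map_one]
    rw [Pi.pow_apply, Pi.one_apply, ← ofAdd_nsmul, nsmul_eq_mul, ← Nat.cast_mul, ← ofAdd_zero]
    congr 1
    rw [ZMod.natCast_eq_zero_iff, hnf]
    refine dvd_trans (dvd_of_eq ?_) (Dvd.intro_left (k i : ℕ) rfl)
      |> fun h => h.trans (dvd_of_eq (by ring : (k i : ℕ) * (r * r ^ (f i - 1)) = r * ((k i : ℕ) * r ^ (f i - 1))))
    rw [← pow_succ', Nat.sub_add_cancel (hf1 i)]⟩
  have hg : Function.Injective g := by
    intro k k' h
    funext i
    have h1 := congrArg (fun v => (Multiplicative.toAdd (v i)).val) (e.symm.injective (Subtype.ext_iff.1 h))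
    have hlt : ∀ k : Fin r, (k : ℕ) * r ^ (f i - 1) < n i := fun k => by
      rw [hnf]
      calc (k : ℕ) * r ^ (f i - 1) < r * r ^ (f i - 1) :=
            Nat.mul_lt_mul_of_pos_right k.isLt (pow_pos hr.pos _)
        _ = r ^ f i := by rw [← pow_succ', Nat.sub_add_cancel (hf1 i)]
    simp only [toAdd_ofAdd, ZMod.val_natCast, Nat.mod_eq_of_lt (hlt _)] at h1
    exact Fin.ext (Nat.eq_of_mul_eq_mul_right (pow_pos hr.pos _) h1)
  have hι' : Fintype.card ι ≤ a := by
    have h := (Nat.card_le_card_of_injective g hg).trans hrank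
    rw [Nat.card_fun, Nat.card_eq_fintype_card, Nat.card_eq_fintype_card, Fintype.card_fin] at h
    exact (Nat.pow_le_pow_iff_right hr.one_lt).1 h
  have hsum : ∑ i, f i = a * μ := by
    apply Nat.pow_right_injective hr.two_le
    show r ^ ∑ i, f i = r ^ (a * μ)
    rw [← hcard, Nat.card_congr e.toEquiv, Nat.card_pi, ← Finset.prod_pow_eq_pow_sum]
    exact Finset.prod_congr rfl fun i _ => by rw [Nat.card_congr Multiplicative.toAdd, Nat.card_zmod, hnf]
  have hle : ∑ i, f i ≤ Fintype.card ι * μ := by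
    simpa using Finset.sum_le_card_nsmul Finset.univ f μ fun i _ => hf i
  have hcι : Fintype.card ι = a := le_antisymm hι' (Nat.le_of_mul_le_mul_right (hsum ▸ hle) hμ)
  have hfμ : ∀ i, f i = μ := by
    intro i
    refine (Finset.sum_eq_sum_iff_of_le fun j _ => hf j).1 ?_ i (Finset.mem_univ i)
    simp [hsum, hcι]
  exact ⟨e.trans ((MulEquiv.piCongrRight fun i => AddEquiv.toMultiplicative
    (ZMod.ringEquivCongr (by rw [hnf, hfμ] : n i = r ^ μ)).toAddEquiv).trans
      (MulEquiv.arrowCongr (Fintype.equivFinOfCardEq hcι) (MulEquiv.refl _)))⟩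

end CfsgLib.Chevalley.Homocyclic
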