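import Cfsg.Agent.Lib.Chevalley.Homocyclic.LinAlg

/-!
Refinements of the eigenvalue bound from a vector fixed modulo a small prime and an invariant
alternating form modulo 2.
-/

set_option autoImplicit false

namespace CfsgLib.Chevalley.Homocyclic

open Polynomial

variable {n : Type*} [Fintype n] [DecidableEq n]

theorem linear_cofactor {p' : ℤ[X]} (hp : p'.Monic) (h1 : p'.natDegree = 1) {e l : ℕ} (he : 0 < e)
    (hdvd : p' ∣ (X ^ e - 1) ^ l) : ∃ c : ℤ, (c = 1 ∨ c = -1) ∧ p' = X - C c := by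
  obtain ⟨a, ha⟩ : ∃ a, p' = X + C a := ⟨p'.coeff 0, by
    rw [hp.eq_X_add_C h1]; simp⟩
  obtain ⟨Q, hQ⟩ := hdvd
  have h0 := congrArg (Polynomial.eval (-a)) hQ
  simp only [eval_pow, eval_sub, eval_X, eval_one, eval_mul, ha, eval_add, eval_C,
    neg_add_cancel, zero_mul] at h0
  have h2 : (-a) ^ e = 1 := sub_eq_zero.1 (eq_zero_of_pow_eq_zero h0)
  refine ⟨-a, Int.isUnit_iff.1 (IsUnit.of_pow_eq_one h2 he.ne'), ?_⟩
  rw [ha, map_neg, sub_neg_eq_add]

theorem no_fixed (M : Matrix n n ℤ) {d k : ℕ} {p' : ℤ[X]} (hp : p'.Monic) (hdeg : p'.natDegree = 0)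
    (hP : M.charpoly = cyclotomic d ℤ ^ k * p') (s : ℕ) [Fact s.Prime]
    (hd : (((cyclotomic d ℤ).eval 1 : ℤ) : ZMod s) ≠ 0) {v : n → ZMod s} (hv : v ≠ 0) :
    (M.map (Int.cast : ℤ → ZMod s)).mulVec v ≠ v := by
  intro hfix
  have h := eval_one_of_fixed M s hv hfix
  rw [hP, hp.natDegree_eq_zero.1 hdeg, mul_one, eval_pow, Int.cast_pow] at h
  exact hd (eq_zero_of_pow_eq_zero h)

theorem smul_of_finrank_le_one {K V : Type*} [Field K] [AddCommGroup V] [Module K V]
    [FiniteDimensional K V] {W : Submodule K V} (hW : Module.finrank K W ≤ 1) {v w : V}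
    (hv : v ∈ W) (hw : w ∈ W) (h0 : v ≠ 0) : ∃ c : K, w = c • v := by
  obtain ⟨b, hb⟩ := finrank_le_one_iff.1 hW
  obtain ⟨c₀, hc₀⟩ := hb ⟨v, hv⟩
  obtain ⟨c₁, hc₁⟩ := hb ⟨w, hw⟩
  have e0 : c₀ • (b : V) = v := congrArg Subtype.val hc₀
  have e1 : c₁ • (b : V) = w := congrArg Subtype.val hc₁
  have hne : c₀ ≠ 0 := fun h => h0 (by rw [← e0, h, zero_smul])
  exact ⟨c₁ * c₀⁻¹, by rw [← e0, smul_smul, mul_assoc, inv_mul_cancel₀ hne, mul_one, e1]⟩

theorem one_ne_neg_one_three : (1 : ZMod 3) ≠ -1 := by decide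

/-- `-1` with multiplicity at least five in rank six, with a fixed class modulo 3. -/
theorem e6_two (M : Matrix n n ℤ) {e : ℕ} (he : 0 < e) (hM : M ^ e = 1) {p' : ℤ[X]}
    (hp : p'.Monic) (hdeg : p'.natDegree = 1) (hP : M.charpoly = cyclotomic 2 ℤ ^ 5 * p')
    (hnd : ¬ cyclotomic 2 ℤ ∣ p') (hdvd : p' ∣ (X ^ e - 1) ^ Fintype.card n)
    {v : n → ZMod 3} (hv : v ≠ 0) (hfix : (M.map (Int.cast : ℤ → ZMod 3)).mulVec v = v) (j : n) :
    ∃ c : ZMod 3, ∀ i, ((M i j + if i = j then 1 else 0 : ℤ) : ZMod 3) = c * v i := by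
  have : Fact (Nat.Prime 3) := ⟨by norm_num⟩
  obtain ⟨c, hc, rfl⟩ := linear_cofactor hp hdeg he hdvd
  rw [cyclotomic_two] at hP hnd
  obtain rfl : c = 1 := hc.resolve_right fun h => hnd (dvd_of_eq (by rw [h]; simp))
  have h0 : Polynomial.aeval M ((X + 1) * (X - C 1) : ℤ[X]) = 0 :=
    aeval_eq_zero_of_dvd_pow M he hM (m := 5) (by rw [hP, mul_pow]; exact mul_dvd_mul_left _ (dvd_pow_self _ (by norm_num)))
  set f : ℤ →+* ZMod 3 := Int.castRingHom (ZMod 3)
  set Mb : Matrix n n (ZMod 3) := M.map f with hMb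
  have h1 : (Mb - 1) * (Mb + 1) = 0 := by
    have h := congrArg f.mapMatrix h0
    simp only [map_mul, map_add, map_sub, Polynomial.aeval_X, map_one, map_zero] at h
    rw [show f.mapMatrix M = Mb from rfl] at h
    rw [← h]
    noncomm_ring
  have hW : Module.finrank (ZMod 3) (Module.End.eigenspace (Matrix.toLin' Mb) 1) ≤ 1 := by
    refine le_trans (LinearMap.finrank_eigenspace_le _ _) ?_
    rw [Matrix.charpoly_toLin', hMb, Matrix.charpoly_map, hP, ← count_roots]
    simp only [Polynomial.map_mul, Polynomial.map_pow, Polynomial.map_add, Polynomial.map_X,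
      Polynomial.map_one, Polynomial.map_sub, map_one]
    have hne1 : (X + 1 : (ZMod 3)[X]) ≠ 0 := (monic_X_add_C (1 : ZMod 3)).ne_zero
    rw [show (X + 1 : (ZMod 3)[X]) = X + C 1 by rw [map_one]] at hne1 ⊢
    rw [show (X - 1 : (ZMod 3)[X]) = X - C 1 by rw [map_one],
      roots_mul (mul_ne_zero (pow_ne_zero _ hne1) (monic_X_sub_C (1 : ZMod 3)).ne_zero),
      roots_pow, roots_X_add_C, roots_X_sub_C, Multiset.count_add, Multiset.count_nsmul,
      Multiset.count_singleton, Multiset.count_singleton, if_neg one_ne_neg_one_three, if_pos rfl]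
  have hmem : ∀ w, Mb.mulVec w = w → w ∈ Module.End.eigenspace (Matrix.toLin' Mb) 1 := fun w h => by
    rw [Module.End.mem_eigenspace_iff, Matrix.toLin'_apply, h, one_smul]
  have hcol : Mb.mulVec (fun i => (Mb + 1) i j) = fun i => (Mb + 1) i j := by
    funext i
    have h := congrFun (congrFun h1 i) j
    rw [Matrix.sub_mul, Matrix.one_mul, Matrix.sub_apply, Matrix.zero_apply, sub_eq_zero] at h
    exact h
  obtain ⟨c, hc⟩ := smul_of_finrank_le_one hW (hmem v hfix) (hmem _ hcol) hv
  refine ⟨c, fun i => ?_⟩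
  have h := congrFun hc i
  simp only [Pi.smul_apply, smul_eq_mul] at h
  rw [← h]
  by_cases hij : i = j <;> simp [hMb, f, hij]

/-- Two-by-two minors of a matrix of rank at most one. -/
def MinorsVanish {R : Type*} [Mul R] (S : Matrix n n R) : Prop :=
  ∀ i j k l, S i j * S k l = S i l * S k j

/-- Fourth roots of unity with multiplicity three in rank seven, with an invariant alternating
form modulo 2. -/
theorem e7_four [LinearOrder n] (M : Matrix n n ℤ) {e : ℕ} (he : 0 < e) (hM : M ^ e = 1) {p' : ℤ[X]}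
    (hp : p'.Monic) (hdeg : p'.natDegree = 1) (hP : M.charpoly = cyclotomic 4 ℤ ^ 3 * p')
    (hdvd : p' ∣ (X ^ e - 1) ^ Fintype.card n) (C₀ : Matrix n n (ZMod 2))
    (hsym : C₀.transpose = C₀) (hdiag : ∀ i, C₀ i i = 0)
    (hinv : (M.map (Int.cast : ℤ → ZMod 2)).transpose * C₀ * M.map (Int.cast : ℤ → ZMod 2) = C₀) :
    C₀ * (M * M + 1).map (Int.cast : ℤ → ZMod 2) = 0 ∧ MinorsVanish (M * M + 1) := by
  obtain ⟨c, hc, rfl⟩ := linear_cofactor hp hdeg he hdvd
  have h4 : cyclotomic 4 ℤ = X ^ 2 + 1 := by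
    rw [show (4 : ℕ) = 2 ^ (1 + 1) by norm_num, cyclotomic_prime_pow_eq_geom_sum Nat.prime_two]
    simp [Finset.sum_range_succ]
    ring
  rw [h4] at hP
  have h0 : Polynomial.aeval M ((X ^ 2 + 1) * (X - C c) : ℤ[X]) = 0 :=
    aeval_eq_zero_of_dvd_pow M he hM (m := 3) (by rw [hP, mul_pow]; exact mul_dvd_mul_left _ (dvd_pow_self _ (by norm_num)))
  have h0' : (M - algebraMap ℤ _ c) * (M * M + 1) = 0 := by
    rw [mul_comm] at h0
    simpa [pow_two] using h0
  -- rank one over the rationals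
  have hmin : MinorsVanish (M * M + 1) := by
    set f : ℤ →+* ℚ := Int.castRingHom ℚ
    set Mq : Matrix n n ℚ := M.map f with hMq
    have hW : Module.finrank ℚ (Module.End.eigenspace (Matrix.toLin' Mq) (c : ℚ)) ≤ 1 := by
      refine le_trans (LinearMap.finrank_eigenspace_le _ _) ?_
      rw [Matrix.charpoly_toLin', hMq, Matrix.charpoly_map, hP]
      simp only [Polynomial.map_mul, Polynomial.map_pow, Polynomial.map_add, Polynomial.map_X,
        Polynomial.map_one, Polynomial.map_sub, Polynomial.map_C, f, Int.coe_castRingHom]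
      have hne : ((X ^ 2 + 1 : ℚ[X]) ^ 3).eval (c : ℚ) ≠ 0 := by
        simp only [eval_pow, eval_add, eval_X, eval_one]
        positivity
      have hne' : (X ^ 2 + 1 : ℚ[X]) ^ 3 * (X - C (c : ℚ)) ≠ 0 :=
        mul_ne_zero (fun h => hne (by rw [h, eval_zero])) (monic_X_sub_C (c : ℚ)).ne_zero
      rw [rootMultiplicity_mul hne', rootMultiplicity_eq_zero hne, rootMultiplicity_X_sub_C_self]
    have hmem : ∀ j, (fun i => ((M * M + 1) i j : ℚ)) ∈ Module.End.eigenspace (Matrix.toLin' Mq) (c : ℚ) := by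
      intro j
      rw [Module.End.mem_eigenspace_iff, Matrix.toLin'_apply]
      funext i
      have h := congrFun (congrFun h0' i) j
      rw [Matrix.sub_mul, Matrix.sub_apply, Matrix.zero_apply, sub_eq_zero, Algebra.algebraMap_eq_smul_one,
        Matrix.smul_mul, one_mul, Matrix.smul_apply, smul_eq_mul] at h
      have h' := congrArg (Int.cast : ℤ → ℚ) h
      push_cast [Matrix.mul_apply] at h'
      simpa [hMq, f, Matrix.mulVec, dotProduct, Matrix.mul_apply] using h'
    intro i j k l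
    by_cases hz : ∀ i, (M * M + 1) i j = 0
    · simp [hz]
    simp only [not_forall] at hz
    have hv : (fun i => ((M * M + 1) i j : ℚ)) ≠ 0 := by
      obtain ⟨i₀, hi₀⟩ := hz
      exact fun h => hi₀ (Int.cast_eq_zero.1 (congrFun h i₀))
    obtain ⟨t, ht⟩ := smul_of_finrank_le_one hW (hmem j) (hmem l) hv
    have hk : ((M * M + 1) k l : ℚ) = t * (M * M + 1) k j := congrFun ht k
    have hi : ((M * M + 1) i l : ℚ) = t * (M * M + 1) i j := congrFun ht i
    have : (((M * M + 1) i j * (M * M + 1) k l : ℤ) : ℚ) =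
        (((M * M + 1) i l * (M * M + 1) k j : ℤ) : ℚ) := by
      push_cast; rw [hk, hi]; ring
    exact_mod_cast this
  refine ⟨?_, hmin⟩
  -- modulo two
  set f : ℤ →+* ZMod 2 := Int.castRingHom (ZMod 2)
  set Mb : Matrix n n (ZMod 2) := M.map f with hMb
  set S : Matrix n n (ZMod 2) := (M * M + 1).map (Int.cast : ℤ → ZMod 2) with hS
  have hSb : S = Mb * Mb + 1 := by
    rw [hS, show (M * M + 1).map (Int.cast : ℤ → ZMod 2) = f.mapMatrix (M * M + 1) from rfl, map_add,
      map_mul, map_one]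
    rfl
  have htwo : ∀ x : Matrix n n (ZMod 2), x + x = 0 := fun x => by
    ext i j; exact CharTwo.add_self_eq_zero _
  set N := Mb + 1 with hN
  have hMN : Mb = N + 1 := by rw [hN, add_assoc, htwo, add_zero]
  have hSN : S = N * N := by
    rw [hSb, hMN, show (N + 1) * (N + 1) + 1 = N * N + (N + N) + (1 + 1) by noncomm_ring, htwo,
      htwo, add_zero, add_zero]
  have hN3 : N * (N * N) = 0 := by
    have h := congrArg f.mapMatrix h0'
    rw [map_mul, map_sub, map_add, map_mul, map_one, map_zero, show f.mapMatrix M = Mb from rfl,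
      ← hSb, hSN] at h
    have hc1 : f.mapMatrix (algebraMap ℤ (Matrix n n ℤ) c) = 1 := by
      rcases hc with rfl | rfl
      · simp
      · rw [map_neg, map_one, map_neg, map_one]
        exact neg_eq_of_add_eq_zero_left (htwo 1)
    rw [hc1, hMN, add_sub_cancel_right] at h
    exact h
  have hI : N.transpose * C₀ * N + N.transpose * C₀ + C₀ * N = 0 := by
    have h : Mb.transpose * C₀ * Mb = C₀ := hinv
    rw [hMN, Matrix.transpose_add, Matrix.transpose_one,
      show (N.transpose + 1) * C₀ * (N + 1) = N.transpose * C₀ * N + N.transpose * C₀ + C₀ * N + C₀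
        by noncomm_ring] at h
    simpa using h
  have hA : N.transpose * C₀ * (N * N) = 0 := by
    have h := congrArg (· * (N * N)) hI
    simp only [add_mul, zero_mul, Matrix.mul_assoc _ N (N * N), hN3, mul_zero, zero_add, add_zero] at h
    exact h
  have hB : C₀ * S = N.transpose * C₀ * N := by
    have h := congrArg (· * N) hI
    simp only [add_mul, zero_mul, Matrix.mul_assoc _ N N, hA, zero_add] at h
    rw [hSN, eq_neg_of_add_eq_zero_right h]
    exact (neg_eq_of_add_eq_zero_left (htwo _))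
  have hsymS : (C₀ * S).transpose = C₀ * S := by
    rw [hB, Matrix.transpose_mul, Matrix.transpose_mul, Matrix.transpose_transpose, hsym, Matrix.mul_assoc]
  have hdiagS : ∀ i, (C₀ * S) i i = 0 := by
    intro i
    set U : Matrix n n (ZMod 2) := Matrix.of fun a b => if a < b then C₀ a b else 0 with hU
    have hCU : C₀ = U + U.transpose := by
      ext a b
      have hs : C₀ b a = C₀ a b := congrFun (congrFun hsym a) b
      rcases lt_trichotomy a b with h | h | h
      · simp [hU, h, h.not_gt]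
      · subst h; simp [hU, hdiag]
      · simp [hU, h, h.not_gt, hs]
    rw [hB, hCU, Matrix.mul_add N.transpose U, Matrix.add_mul (N.transpose * U),
      show N.transpose * U.transpose * N = (N.transpose * U * N).transpose by
        rw [Matrix.transpose_mul, Matrix.transpose_mul, Matrix.transpose_transpose, Matrix.mul_assoc],
      Matrix.add_apply, Matrix.transpose_apply, CharTwo.add_self_eq_zero]
  have hm : MinorsVanish (C₀ * S) := by
    intro i j k l
    simp only [Matrix.mul_apply, Finset.sum_mul, Finset.mul_sum]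
    refine Finset.sum_congr rfl fun a _ => Finset.sum_congr rfl fun b _ => ?_
    have h := congrArg (Int.cast : ℤ → ZMod 2) (hmin b j a l)
    push_cast at h
    simp only [hS, Matrix.map_apply]
    linear_combination (C₀ i b * C₀ k a) * h
  ext i j
  have h := hm i j j i
  rw [show (C₀ * S) j i = (C₀ * S) i j from congrFun (congrFun hsymS i) j, hdiagS, zero_mul] at h
  exact mul_self_eq_zero.1 h

end CfsgLib.Chevalley.Homocyclic
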