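import Cfsg.Agent.Lib.Chevalley.Homocyclic.Fusion
import Cfsg.Agent.Lib.Chevalley.Homocyclic.Exceptional
import Cfsg.Agent.Lib.Chevalley.ExtraData

/-!
Multiplicity bounds for eigenvalues of Weyl group elements of the seven tabulated data.
-/

set_option autoImplicit false
set_option maxRecDepth 100000
set_option linter.unusedSimpArgs false

namespace CfsgLib.Chevalley.Homocyclic

open Cfsg.Lie Polynomial

variable {D : ChevalleyDatum} {A : Aux} {r : ℕ} [Fact r.Prime]

/-- The multiplicity bound. -/
def Bound (hC : Cert D A) (degs : List ℕ) (r : ℕ) [Fact r.Prime] : Prop :=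
  ∀ σ ∈ wSet hC D.rank, ¬ r ∣ orderOf σ → ∀ q : ℕ, ¬ r ∣ q →
    0 < (degs.filter fun e => orderOf (q : ZMod r) ∣ e).length →
    Module.finrank (ZMod r) (Module.End.eigenspace
      (Matrix.toLin' ((wMat hC σ).transpose.map (Int.cast : ℤ → ZMod r))) (q : ZMod r)) ≤
      (degs.filter fun e => orderOf (q : ZMod r) ∣ e).length

/-- All admissible orders are covered by the degree bound, apart from a list. -/
def degOK (l : ℕ) (degs exc : List ℕ) : Prop :=
  ∀ e ∈ degs, ∀ d ∈ List.range (e + 1), d ∣ e →
    d ∈ exc ∨ l < ((degs.filter fun e => d ∣ e).length + 1) * Nat.totient d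

theorem bound_of_exceptions (h : Full D A) {degs exc : List ℕ} (hpos : ∀ e ∈ degs, 0 < e)
    (hok : degOK D.rank degs exc)
    (hexc : ∀ σ ∈ wSet h.cert D.rank, ∀ (d k : ℕ) (p' : ℤ[X]), d ∈ exc →
      (degs.filter fun e => d ∣ e).length < k → p'.Monic →
      (wMat h.cert σ).charpoly = cyclotomic d ℤ ^ k * p' → ¬ cyclotomic d ℤ ∣ p' →
      k * Nat.totient d + p'.natDegree = D.rank → p' ∣ (X ^ orderOf σ - 1) ^ D.rank → False) :
    Bound h.cert degs r := by
  intro σ hσ hre q hq ha
  set d := orderOf (q : ZMod r)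
  set a := (degs.filter fun e => d ∣ e).length with hadef
  have hM : (wMat h.cert σ).transpose ^ orderOf σ = 1 := by
    rw [← Matrix.transpose_pow, ← wMat_pow h hσ, pow_orderOf_eq_one, wMat_one, Matrix.transpose_one]
  obtain ⟨k, p', hp', hP, hnd, hdeg, hdvd, hle⟩ := eigen_split _ hM hre
    (z := (q : ZMod r)) (by rwa [Ne, ZMod.natCast_eq_zero_iff])
  rw [Fintype.card_fin] at hdeg hdvd
  rw [Matrix.charpoly_transpose] at hP
  refine hle.trans ?_
  by_contra hlt
  rw [not_le] at hlt
  obtain ⟨e, he⟩ := List.exists_mem_of_length_pos ha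
  rw [List.mem_filter, decide_eq_true_eq] at he
  rcases hok e he.1 d (List.mem_range.2 (Nat.lt_succ_of_le (Nat.le_of_dvd (hpos e he.1) he.2))) he.2 with hd | hd
  · exact hexc σ hσ d k p' hd hlt hp' hP hnd hdeg hdvd
  · have h1 : (a + 1) * Nat.totient d ≤ k * Nat.totient d := Nat.mul_le_mul_right _ hlt
    change D.rank < (a + 1) * Nat.totient d at hd
    linarith [Nat.zero_le p'.natDegree]

theorem bound_of_degOK (h : Full D A) {degs : List ℕ} (hpos : ∀ e ∈ degs, 0 < e)
    (hok : degOK D.rank degs []) : Bound h.cert degs r :=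
  bound_of_exceptions h hpos hok fun _ _ _ _ _ hd => absurd hd List.not_mem_nil

theorem wMat_induction (h : Full D A) {p : Matrix (Fin D.rank) (Fin D.rank) ℤ → Prop} (h1 : p 1)
    (hstep : ∀ (i : Fin D.rank) M, p M → p (wMat h.cert (rfPerm h.cert i) * M))
    {σ : Equiv.Perm (Fin D.nroots)} (hσ : σ ∈ wSet h.cert D.rank) : p (wMat h.cert σ) := by
  obtain ⟨l, -, rfl⟩ := mem_wSet.1 hσ
  induction l with
  | nil => rw [show wPerm h.cert [] = 1 from rfl, wMat_one]; exact h1
  | cons i l ih =>
    rw [wPerm_cons, wMat_mul h (by simpa [wPerm_cons, show wPerm h.cert [] = 1 from rfl] using mem_wSet_rank h.cert [i])]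
    exact hstep i _ (ih (mem_wSet_rank h.cert l))

theorem wMat_rf (h : Full D A) (i k j : Fin D.rank) :
    wMat h.cert (rfPerm h.cert i) k j = crd A k (D.simple j) - D.cartan i (D.simple j) * if i = k then 1 else 0 := by
  show crd A k (rf h.cert i (smp h.cert j)) = _
  rw [h.crd_rf (s := smp h.cert j) i k.isLt]
  simp [smp, Fin.val_inj]

theorem crd_simple_fin (hC : Cert D A) (k j : Fin D.rank) :
    crd A k (D.simple j) = if k = j then 1 else 0 := by
  rw [crd_simple hC k.isLt j.isLt]
  simp [Fin.val_inj]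

/-- The Cartan matrix modulo a prime. -/
def cartanMod (D : ChevalleyDatum) (s : ℕ) : Matrix (Fin D.rank) (Fin D.rank) (ZMod s) :=
  Matrix.of fun i j => (D.cartan i (D.simple j) : ZMod s)

/-- A vector in the radical of the Cartan matrix modulo `s` is fixed by the Weyl group. -/
theorem fixed_of_radical (h : Full D A) {s : ℕ} {v : Fin D.rank → ZMod s}
    (hv : (cartanMod D s).mulVec v = 0) {σ : Equiv.Perm (Fin D.nroots)} (hσ : σ ∈ wSet h.cert D.rank) :
    ((wMat h.cert σ).map (Int.cast : ℤ → ZMod s)).mulVec v = v := by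
  refine wMat_induction h (p := fun M => (M.map (Int.cast : ℤ → ZMod s)).mulVec v = v) ?_ (fun i M hM => ?_) hσ
  · rw [show (1 : Matrix (Fin D.rank) (Fin D.rank) ℤ).map (Int.cast : ℤ → ZMod s) = 1 from
      map_one (Int.castRingHom (ZMod s)).mapMatrix, Matrix.one_mulVec]
  · rw [show (wMat h.cert (rfPerm h.cert i) * M).map (Int.cast : ℤ → ZMod s) =
        (wMat h.cert (rfPerm h.cert i)).map (Int.cast : ℤ → ZMod s) * M.map (Int.cast : ℤ → ZMod s) from
      map_mul (Int.castRingHom (ZMod s)).mapMatrix _ _, ← Matrix.mulVec_mulVec, hM]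
    funext k
    rw [show (Matrix.mulVec ((wMat h.cert (rfPerm h.cert i)).map (Int.cast : ℤ → ZMod s)) v) k =
      ∑ j, ((wMat h.cert (rfPerm h.cert i) k j : ℤ) : ZMod s) * v j from rfl]
    have hw : ∀ j, ((wMat h.cert (rfPerm h.cert i) k j : ℤ) : ZMod s) =
        (if k = j then 1 else 0) - (D.cartan i (D.simple j) : ZMod s) * if i = k then 1 else 0 := fun j => by
      rw [show wMat h.cert (rfPerm h.cert i) k j = _ from wMat_rf h i k j, crd_simple_fin h.cert]
      push_cast
      rfl
    rw [Finset.sum_congr rfl fun j _ => by rw [hw j]]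
    simp only [
      Int.cast_sub, Int.cast_mul, sub_mul, Finset.sum_sub_distrib, Int.cast_ite, Int.cast_one, Int.cast_zero]
    have h0 : ∑ j : Fin D.rank, (D.cartan i (D.simple j) : ZMod s) * v j = 0 := congrFun hv i
    by_cases hik : i = k
    · subst hik
      simp [h0]
    · simp [hik]

/-- The alternating form modulo two. -/
theorem form_invariant (h : Full D A) {s : ℕ} (hsym : (cartanMod D s).transpose = cartanMod D s)
    (hB : ∀ i k l : Fin D.rank,
      (cartanMod D s i i - 2) * cartanMod D s i k * cartanMod D s i l = 0)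
    {σ : Equiv.Perm (Fin D.nroots)} (hσ : σ ∈ wSet h.cert D.rank) :
    ((wMat h.cert σ).map (Int.cast : ℤ → ZMod s)).transpose * cartanMod D s *
      (wMat h.cert σ).map (Int.cast : ℤ → ZMod s) = cartanMod D s := by
  refine wMat_induction h (p := fun M => (M.map (Int.cast : ℤ → ZMod s)).transpose * cartanMod D s *
    M.map (Int.cast : ℤ → ZMod s) = cartanMod D s) ?_ (fun i M hM => ?_) hσ
  · rw [show (1 : Matrix (Fin D.rank) (Fin D.rank) ℤ).map (Int.cast : ℤ → ZMod s) = 1 from
      map_one (Int.castRingHom (ZMod s)).mapMatrix, Matrix.transpose_one, one_mul, mul_one]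
  · rw [show (wMat h.cert (rfPerm h.cert i) * M).map (Int.cast : ℤ → ZMod s) =
        (wMat h.cert (rfPerm h.cert i)).map (Int.cast : ℤ → ZMod s) * M.map (Int.cast : ℤ → ZMod s) from
      map_mul (Int.castRingHom (ZMod s)).mapMatrix _ _, Matrix.transpose_mul]
    set R := (wMat h.cert (rfPerm h.cert i)).map (Int.cast : ℤ → ZMod s)
    set C := cartanMod D s with hC
    suffices hR : R.transpose * C * R = C by
      rw [show (M.map (Int.cast : ℤ → ZMod s)).transpose * R.transpose * C * (R * M.map Int.cast) =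
        (M.map Int.cast).transpose * (R.transpose * C * R) * M.map Int.cast by noncomm_ring, hR, hM]
    have hRe : R = 1 - Matrix.vecMulVec (Pi.single i 1) (C i) := by
      ext k j
      rw [show R k j = ((wMat h.cert (rfPerm h.cert i) k j : ℤ) : ZMod s) from rfl,
        show wMat h.cert (rfPerm h.cert i) k j = _ from wMat_rf h i k j, crd_simple_fin h.cert]
      simp only [Matrix.sub_apply, Matrix.one_apply,
        Matrix.vecMulVec_apply, Pi.single_apply, hC, cartanMod, Matrix.of_apply]
      push_cast
      by_cases hik : i = k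
      · subst hik
        simp [eq_comm]
      · simp [hik, Ne.symm hik, eq_comm]
    ext k l
    have hs : ∀ a b, C a b = C b a := fun a b => congrFun (congrFun hsym b) a
    simp only [hRe, Matrix.mul_apply, Matrix.transpose_apply, Matrix.sub_apply, Matrix.one_apply,
      Matrix.vecMulVec_apply, Pi.single_apply, sub_mul, mul_sub, Finset.sum_sub_distrib, ite_mul,
      mul_ite, one_mul, mul_one, zero_mul, mul_zero, Finset.sum_ite_eq', Finset.sum_ite_eq,
      Finset.mem_univ, if_true]
    linear_combination (hB i k l) - C i l * (hs k i)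

theorem cartan_sum_cast (h : Full D A) (s : ℕ) (k : Fin D.rank) (x : Fin D.nroots) :
    (D.cartan k x : ZMod s) = ∑ i : Fin D.rank, cartanMod D s k i * (crd A i x : ZMod s) := by
  rw [cartan_eq_sum h k x]
  push_cast
  exact Finset.sum_congr rfl fun i _ => mul_comm _ _

theorem fullG2 : Full chevG2 auxG2 := ⟨⟨cert_G2, posG2, by simp⟩, extraG2⟩
theorem fullB2 : Full chevB2 auxB2 := ⟨⟨cert_B2, posB2, by simp⟩, extraB2⟩
theorem fullD4 : Full chevD4 auxD4 := ⟨⟨cert_D4, posD4, by simp⟩, extraD4⟩
theorem fullF4 : Full chevF4 auxF4 := ⟨⟨cert_F4, posF4, by simp⟩, extraF4⟩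
theorem fullE6 : Full chevE6 auxE6 := ⟨⟨cert_E6, posE6, by simp⟩, extraE6⟩
theorem fullE7 : Full chevE7 auxE7 := ⟨⟨cert_E7, posE7, by simp⟩, extraE7⟩
theorem fullE8 : Full chevE8 auxE8 := ⟨⟨cert_E8, posE8, by simp⟩, extraE8⟩

theorem okG2 : degOK chevG2.rank [2, 6] [] := by unfold degOK; decide +kernel
theorem okB2 : degOK chevB2.rank [2, 4] [] := by unfold degOK; decide +kernel
theorem okD4 : degOK chevD4.rank [2, 4, 4, 6] [3, 6] := by unfold degOK; decide +kernel
theorem okF4 : degOK chevF4.rank [2, 6, 8, 12] [] := by unfold degOK; decide +kernel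
theorem okE6 : degOK chevE6.rank [2, 5, 6, 8, 9, 12] [2, 4, 6] := by unfold degOK; decide +kernel
theorem okE7 : degOK chevE7.rank [2, 6, 8, 10, 12, 14, 18] [4] := by unfold degOK; decide +kernel
theorem okE8 : degOK chevE8.rank [2, 8, 12, 14, 18, 20, 24, 30] [] := by unfold degOK; decide +kernel

theorem boundG2 : Bound fullG2.cert [2, 6] r := bound_of_degOK fullG2 (by simp) okG2
theorem boundB2 : Bound fullB2.cert [2, 4] r := bound_of_degOK fullB2 (by simp) okB2
theorem boundF4 : Bound fullF4.cert [2, 6, 8, 12] r := bound_of_degOK fullF4 (by simp) okF4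
theorem boundE8 : Bound fullE8.cert [2, 8, 12, 14, 18, 20, 24, 30] r :=
  bound_of_degOK fullE8 (by simp) okE8

theorem eval_one_cyclotomic (d : ℕ) (hd : d ∈ [2, 3, 4, 6]) :
    (cyclotomic d ℤ).eval 1 = if d = 2 then 2 else if d = 3 then 3 else if d = 4 then 2 else 1 := by
  simp only [List.mem_cons, List.not_mem_nil, or_false] at hd
  rcases hd with rfl | rfl | rfl | rfl
  · simpa using eval_one_cyclotomic_prime (R := ℤ) (p := 2)
  · simpa using eval_one_cyclotomic_prime (R := ℤ) (p := 3)
  · simpa using eval_one_cyclotomic_prime_pow (R := ℤ) (p := 2) 1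
  · simpa using eval_one_cyclotomic_not_prime_pow (R := ℤ) (n := 6) fun {p} hp k e => by
      rcases k with _ | k
      · simp at e
      · have h2 := (Nat.prime_dvd_prime_iff_eq Nat.prime_two hp).1
          (Nat.prime_two.dvd_of_dvd_pow (e ▸ (by norm_num : 2 ∣ 6)))
        have h3 := (Nat.prime_dvd_prime_iff_eq Nat.prime_three hp).1
          (Nat.prime_three.dvd_of_dvd_pow (e ▸ (by norm_num : 3 ∣ 6)))
        omega

/-- The fixed class modulo two in type D4. -/
def kapD4 : Fin chevD4.rank → ZMod 2 := fun i => if i.val = 0 ∨ i.val = 2 then 1 else 0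

/-- The fixed class modulo three in type E6. -/
def kapE6 : Fin chevE6.rank → ZMod 3 := fun i => (([1, 0, 2, 0, 1, 2] : List ℤ).getD i.val 0 : ZMod 3)

theorem kapD4_rad : ∀ i, (cartanMod chevD4 2).mulVec kapD4 i = 0 := by decide +kernel
theorem kapD4_ne : ¬ ∀ i, kapD4 i = 0 := by decide +kernel
theorem kapE6_rad : ∀ i, (cartanMod chevE6 3).mulVec kapE6 i = 0 := by decide +kernel
theorem kapE6_ne : ¬ ∀ i, kapE6 i = 0 := by decide +kernel

theorem boundD4 : Bound fullD4.cert [2, 4, 4, 6] r := by
  have : Fact (Nat.Prime 2) := ⟨Nat.prime_two⟩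
  refine bound_of_exceptions fullD4 (by simp) okD4 fun σ hσ d k p' hd hk hp hP _ hdeg _ => ?_
  refine no_fixed _ (d := d) (k := k) hp ?_ hP 2 ?_ (v := kapD4) (fun h => kapD4_ne (congrFun h))
    (fixed_of_radical fullD4 (funext kapD4_rad) hσ)
  · change k * Nat.totient d + p'.natDegree = 4 at hdeg
    simp only [List.mem_cons, List.not_mem_nil, or_false] at hd
    rcases hd with rfl | rfl <;>
    · simp [List.filter_cons, Nat.totient_prime Nat.prime_three, show Nat.totient 6 = 2 from by decide] at hdeg hk
      omega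
  · rw [eval_one_cyclotomic d (by simp only [List.mem_cons, List.not_mem_nil, or_false] at hd ⊢; tauto)]
    simp only [List.mem_cons, List.not_mem_nil, or_false] at hd
    rw [Ne, ZMod.intCast_zmod_eq_zero_iff_dvd]
    rcases hd with rfl | rfl <;> norm_num

/-- Pairs of roots whose Cartan vectors cancel modulo three. -/
noncomputable def cancelE6 : Bool :=
  (List.range 6).all fun j => (List.range 72).all fun x =>
    !((List.range 6).all fun k => (chevE6.cartan k x + chevE6.cartan k (chevE6.simple j)) % 3 == 0) ||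
      (List.range 6).all fun i => crd auxE6 i x == if i = j then -1 else 0

theorem cancelE6_ok : cancelE6 = true := by decide +kernel

theorem boundE6 : Bound fullE6.cert [2, 5, 6, 8, 9, 12] r := by
  have : Fact (Nat.Prime 3) := ⟨Nat.prime_three⟩
  refine bound_of_exceptions fullE6 (by simp) okE6 fun σ hσ d k p' hd hk hp hP hnd hdeg hdvd => ?_
  have hfix := fixed_of_radical fullE6 (funext kapE6_rad) hσ
  have hne : kapE6 ≠ 0 := fun h => kapE6_ne (congrFun h)
  change k * Nat.totient d + p'.natDegree = 6 at hdeg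
  simp only [List.mem_cons, List.not_mem_nil, or_false] at hd
  rcases hd with rfl | rfl | rfl
  · simp [List.filter_cons, Nat.totient_two] at hdeg hk
    rcases (show k = 5 ∨ k = 6 by omega) with rfl | rfl
    · have he : 0 < orderOf σ := orderOf_pos σ
      have hM : wMat fullE6.cert σ ^ orderOf σ = 1 := by
        rw [← wMat_pow fullE6 hσ, pow_orderOf_eq_one, wMat_one]
      have hdvd' : p' ∣ (X ^ orderOf σ - 1) ^ Fintype.card (Fin chevE6.rank) := by
        rwa [Fintype.card_fin]
      have hcol := e6_two _ he hM hp (by omega) hP hnd hdvd' hne hfix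
      have key : ∀ i j : Fin chevE6.rank, wMat fullE6.cert σ i j = if i = j then -1 else 0 := by
        intro i j
        obtain ⟨c, hc⟩ := hcol j
        set x := σ (smp fullE6.cert j)
        have hsum : ∀ k : Fin chevE6.rank,
            ((chevE6.cartan k x + chevE6.cartan k (chevE6.simple j) : ℤ) : ZMod 3) = 0 := by
          intro k
          push_cast
          rw [cartan_sum_cast fullE6 3 k x, cartan_sum_cast fullE6 3 k (smp fullE6.cert j)
            |> fun h => (show ((chevE6.cartan k (chevE6.simple j) : ℤ) : ZMod 3) = _ from h), ← Finset.sum_add_distrib]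
          have h0 : ∑ l, cartanMod chevE6 3 k l * kapE6 l = 0 := kapE6_rad k
          calc _ = ∑ l, cartanMod chevE6 3 k l * (c * kapE6 l) := Finset.sum_congr rfl fun l _ => by
                rw [← mul_add, ← hc l]
                simp [wMat, x, smp, crd_simple_fin fullE6.cert]
            _ = c * ∑ l, cartanMod chevE6 3 k l * kapE6 l := by
                rw [Finset.mul_sum]; exact Finset.sum_congr rfl fun l _ => by ring
            _ = 0 := by rw [h0, mul_zero]
        have hb := List.all_eq_true.1 (List.all_eq_true.1 cancelE6_ok j (List.mem_range.2 j.isLt)) x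
          (List.mem_range.2 x.isLt)
        rw [Bool.or_eq_true, Bool.not_eq_true', ← Bool.not_eq_true] at hb
        have hall := hb.resolve_left fun hn => hn (List.all_eq_true.2 fun k hk => by
          rw [List.mem_range] at hk
          rw [beq_iff_eq, ← Int.dvd_iff_emod_eq_zero]
          exact (ZMod.intCast_zmod_eq_zero_iff_dvd _ 3).1 (hsum ⟨k, hk⟩))
        have := beq_iff_eq.1 (List.all_eq_true.1 hall i (List.mem_range.2 i.isLt))
        simpa [wMat, x, Fin.val_inj] using this
      apply hne
      funext l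
      have h2 := congrFun hfix l
      simp [Matrix.mulVec, dotProduct, Matrix.map_apply, key, apply_ite (Int.cast : ℤ → ZMod 3)] at h2
      have h3 : kapE6 l * 3 = 0 := by rw [show (3 : ZMod 3) = 0 from rfl, mul_zero]
      rw [Pi.zero_apply]
      linear_combination h2 + h3
    · exact no_fixed _ (d := 2) (k := 6) hp (by omega) hP 3
        (by rw [eval_one_cyclotomic 2 (by simp), Ne, ZMod.intCast_zmod_eq_zero_iff_dvd]; norm_num) hne hfix
  · simp [List.filter_cons, show Nat.totient 4 = 2 from by decide] at hdeg hk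
    exact no_fixed _ (d := 4) (k := k) hp (by omega) hP 3
      (by rw [eval_one_cyclotomic 4 (by simp), Ne, ZMod.intCast_zmod_eq_zero_iff_dvd]; norm_num) hne hfix
  · simp [List.filter_cons, show Nat.totient 6 = 2 from by decide] at hdeg hk
    exact no_fixed _ (d := 6) (k := k) hp (by omega) hP 3
      (by rw [eval_one_cyclotomic 6 (by simp)]; norm_num) hne hfix

/-- Pairs of roots with the same Cartan vector modulo two. -/
noncomputable def cancelE7 : Bool :=
  (List.range 7).all fun j => (List.range 126).all fun x =>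
    !((List.range 7).all fun k => (chevE7.cartan k x + chevE7.cartan k (chevE7.simple j)) % 2 == 0) ||
      ((List.range 7).all fun i => crd auxE7 i x == if i = j then -1 else 0) ||
      ((List.range 7).all fun i => crd auxE7 i x == if i = j then 1 else 0)

theorem cancelE7_ok : cancelE7 = true := by decide +kernel
theorem fullSupportE7 : ∃ s : Fin chevE7.nroots, ∀ i : Fin chevE7.rank, 0 < crd auxE7 i s := by decide +kernel
theorem symE7 : (cartanMod chevE7 2).transpose = cartanMod chevE7 2 := by decide +kernel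
theorem diagE7 : ∀ i, cartanMod chevE7 2 i i = 0 := by decide +kernel

theorem boundE7 : Bound fullE7.cert [2, 6, 8, 10, 12, 14, 18] r := by
  refine bound_of_exceptions fullE7 (by simp) okE7 fun σ hσ d k p' hd hk hp hP _ hdeg hdvd => ?_
  change k * Nat.totient d + p'.natDegree = 7 at hdeg
  simp only [List.mem_cons, List.not_mem_nil, or_false] at hd
  subst hd
  simp [List.filter_cons, show Nat.totient 4 = 2 from by decide] at hdeg hk
  obtain rfl : k = 3 := by omega
  set M := wMat fullE7.cert σ with hMdef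
  have he : 0 < orderOf σ := orderOf_pos σ
  have hM : M ^ orderOf σ = 1 := by rw [hMdef, ← wMat_pow fullE7 hσ, pow_orderOf_eq_one, wMat_one]
  have hdvd' : p' ∣ (X ^ orderOf σ - 1) ^ Fintype.card (Fin chevE7.rank) := by rwa [Fintype.card_fin]
  obtain ⟨hC, hmin⟩ := e7_four M he hM hp (by omega) hP hdvd' (cartanMod chevE7 2) symE7 diagE7
    (form_invariant fullE7 symE7 (fun i k l => by
      rw [diagE7 i, show (0 : ZMod 2) - 2 = 0 by decide, zero_mul, zero_mul]) hσ)
  set τ := σ * σ
  have hτ : τ ∈ wSet fullE7.cert chevE7.rank := wSet_mul fullE7 hσ hσ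
  have hMτ : M * M = wMat fullE7.cert τ := (wMat_mul fullE7 hσ).symm
  have key : ∀ j : Fin chevE7.rank, (∀ i, (M * M) i j = if i = j then -1 else 0) ∨
      ∀ i, (M * M) i j = if i = j then 1 else 0 := by
    intro j
    set x := τ (smp fullE7.cert j)
    have hsum : ∀ k : Fin chevE7.rank,
        ((chevE7.cartan k x + chevE7.cartan k (chevE7.simple j) : ℤ) : ZMod 2) = 0 := by
      intro k
      push_cast
      rw [cartan_sum_cast fullE7 2 k x, cartan_sum_cast fullE7 2 k (smp fullE7.cert j)
        |> fun h => (show ((chevE7.cartan k (chevE7.simple j) : ℤ) : ZMod 2) = _ from h), ← Finset.sum_add_distrib]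
      have h0 := congrFun (congrFun hC k) j
      rw [Matrix.mul_apply, Matrix.zero_apply] at h0
      rw [← h0]
      refine Finset.sum_congr rfl fun l _ => ?_
      rw [← mul_add, hMτ]
      simp [wMat, x, smp, crd_simple_fin fullE7.cert, Matrix.one_apply]
    have hb := List.all_eq_true.1 (List.all_eq_true.1 cancelE7_ok j (List.mem_range.2 j.isLt)) x
      (List.mem_range.2 x.isLt)
    rw [Bool.or_eq_true, Bool.or_eq_true, Bool.not_eq_true', ← Bool.not_eq_true] at hb
    rcases hb with (hn | hb) | hb
    · exact absurd (List.all_eq_true.2 fun k hk => by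
        rw [List.mem_range] at hk
        rw [beq_iff_eq, ← Int.dvd_iff_emod_eq_zero]
        exact (ZMod.intCast_zmod_eq_zero_iff_dvd _ 2).1 (hsum ⟨k, hk⟩)) hn
    · exact Or.inl fun i => by
        have := beq_iff_eq.1 (List.all_eq_true.1 hb i (List.mem_range.2 i.isLt))
        rw [hMτ]; simpa [wMat, x, Fin.val_inj] using this
    · exact Or.inr fun i => by
        have := beq_iff_eq.1 (List.all_eq_true.1 hb i (List.mem_range.2 i.isLt))
        rw [hMτ]; simpa [wMat, x, Fin.val_inj] using this
  by_cases hall : ∀ j, ∀ i, (M * M) i j = if i = j then -1 else 0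
  · have h1 : M * M = -1 := Matrix.ext fun i j => by rw [hall j i]; simp [Matrix.one_apply]; split_ifs <;> rfl
    have h2 := congrArg Matrix.det h1
    rw [Matrix.det_mul, Matrix.det_neg, Matrix.det_one, Fintype.card_fin] at h2
    change M.det * M.det = (-1) ^ 7 * 1 at h2
    nlinarith [mul_self_nonneg M.det]
  · simp only [not_forall] at hall
    obtain ⟨j₀, i₀, hj₀⟩ := hall
    have hj : ∀ i, (M * M) i j₀ = if i = j₀ then 1 else 0 :=
      (key j₀).resolve_left fun h => hj₀ (h i₀)
    have hneg : ∀ j, j ≠ j₀ → ∀ i, (M * M) i j = if i = j then -1 else 0 := by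
      intro j hne
      refine (key j).resolve_right fun h => ?_
      have hm := hmin j₀ j₀ j j
      simp [Matrix.add_apply, hj j₀, h j, hj j, h j₀, hne, Ne.symm hne] at hm
    obtain ⟨s, hs⟩ := fullSupportE7
    obtain ⟨l, -, hl⟩ := mem_wSet.1 hτ
    have himg : ∀ i : Fin chevE7.rank, crd auxE7 i (τ s) = crd auxE7 i s * (M * M) i i := by
      intro i
      rw [← hl, wPerm_lin fullE7 l i.isLt s, hl, Finset.sum_eq_single i]
      · rw [hMτ]; rfl
      · intro j _ hji
        have : (M * M) i j = 0 := by
          by_cases h : j = j₀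
          · subst h; rw [hj i, if_neg (Ne.symm hji)]
          · rw [hneg j h i, if_neg (Ne.symm hji)]
        rw [hMτ] at this
        rw [show crd auxE7 i (τ (smp fullE7.cert j)) = 0 from this, mul_zero]
      · simp
    obtain ⟨j₁, hj₁⟩ : ∃ j : Fin chevE7.rank, j ≠ j₀ := (by
      by_cases h : (⟨0, by decide⟩ : Fin chevE7.rank) = j₀
      · exact ⟨(⟨1, by decide⟩ : Fin chevE7.rank), fun h1 => absurd (h1.trans h.symm) (by decide)⟩
      · exact ⟨_, h⟩)
    have hp1 : 0 < crd auxE7 j₀ (τ s) := by rw [himg, hj j₀, if_pos rfl, mul_one]; exact hs j₀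
    have hn1 : crd auxE7 j₁ (τ s) < 0 := by
      rw [himg, hneg j₁ hj₁ j₁, if_pos rfl, mul_neg_one]
      exact neg_lt_zero.2 (hs j₁)
    rcases fullE7.pos.pos_or_neg (τ s).isLt with hp | hn
    · have := fullE7.crd_nonneg hp j₁.isLt; omega
    · have := fullE7.crd_nonpos hn j₀.isLt; omega

end CfsgLib.Chevalley.Homocyclic
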