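import Mathlib

/-!
Eigenspaces modulo a prime of integer matrices of finite order, and the few refinements that use a
class fixed modulo a second prime.
-/

set_option autoImplicit false

namespace CfsgLib.Chevalley.Homocyclic

open Polynomial

variable {n : Type*} [Fintype n] [DecidableEq n]

theorem charpoly_dvd (M : Matrix n n ℤ) {e : ℕ} (hM : M ^ e = 1) :
    M.charpoly ∣ (X ^ e - 1) ^ Fintype.card n := by
  set S : Matrix n n ℤ[X] := Matrix.scalar n (X : ℤ[X])
  set A : Matrix n n ℤ[X] := (C : ℤ →+* ℤ[X]).mapMatrix M with hA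
  have hc : Commute S A := Matrix.scalar_commute X (fun y => Commute.all X y) A
  obtain ⟨B, hB⟩ := hc.sub_dvd_pow_sub_pow e
  have h1 : A ^ e = 1 := by rw [hA, ← map_pow, hM, map_one]
  have h2 : S ^ e - A ^ e = Matrix.scalar n (X ^ e - 1 : ℤ[X]) := by
    rw [h1, map_sub, map_pow, map_one]
  have h3 := congrArg Matrix.det hB
  rw [h2, Matrix.det_mul] at h3
  have h4 : (Matrix.scalar n (X ^ e - 1 : ℤ[X])).det = (X ^ e - 1) ^ Fintype.card n := by
    simp [Matrix.scalar_apply, Matrix.det_diagonal, Finset.card_univ]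
  rw [h4] at h3
  exact ⟨B.det, h3⟩

variable {r : ℕ} [Fact r.Prime]

/-- The multiplicity of a primitive root of unity as an eigenvalue modulo `r` is at most the
multiplicity of its cyclotomic polynomial in the characteristic polynomial. -/
theorem eigen_split (M : Matrix n n ℤ) {e : ℕ} (hM : M ^ e = 1) (hre : ¬ r ∣ e) {z : ZMod r}
    (hz : z ≠ 0) :
    ∃ (k : ℕ) (p' : ℤ[X]), p'.Monic ∧ M.charpoly = cyclotomic (orderOf z) ℤ ^ k * p' ∧
      ¬ cyclotomic (orderOf z) ℤ ∣ p' ∧
      k * Nat.totient (orderOf z) + p'.natDegree = Fintype.card n ∧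
      p' ∣ (X ^ e - 1) ^ Fintype.card n ∧
      Module.finrank (ZMod r)
        (Module.End.eigenspace (Matrix.toLin' (M.map (Int.cast : ℤ → ZMod r))) z) ≤ k := by
  have hr := (Fact.out : r.Prime)
  set d := orderOf z with hd
  have hfin : IsOfFinOrder z := isOfFinOrder_iff_pow_eq_one.2
    ⟨r - 1, Nat.sub_pos_of_lt hr.one_lt, ZMod.pow_card_sub_one_eq_one hz⟩
  have hd0 : 0 < d := orderOf_pos_iff.2 hfin
  have hrd : ¬ r ∣ d := fun h => by
    have h1 := Nat.le_of_dvd hd0 h
    have h2 : d ≤ r - 1 := Nat.le_of_dvd (Nat.sub_pos_of_lt hr.one_lt)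
      (orderOf_dvd_of_pow_eq_one (ZMod.pow_card_sub_one_eq_one hz))
    have := hr.one_lt
    omega
  have he0 : 0 < e := Nat.pos_of_ne_zero fun h => hre (h ▸ dvd_zero r)
  set P := M.charpoly with hPdef
  have hPm : P.Monic := M.charpoly_monic
  have hirr : Irreducible (cyclotomic d ℤ) := cyclotomic.irreducible hd0
  obtain ⟨k, p', hp', hPk⟩ := WfDvdMonoid.max_power_factor hPm.ne_zero hirr
  have hp'm : p'.Monic := ((cyclotomic.monic d ℤ).pow k).of_mul_monic_left (hPk ▸ hPm)
  have hdeg : k * Nat.totient d + p'.natDegree = Fintype.card n := by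
    rw [← M.charpoly_natDegree_eq_dim, ← hPdef, hPk,
      ((cyclotomic.monic d ℤ).pow k).natDegree_mul hp'm, natDegree_pow, natDegree_cyclotomic]
  have hdvd : p' ∣ (X ^ e - 1) ^ Fintype.card n :=
    (Dvd.intro_left _ hPk.symm).trans (charpoly_dvd M hM)
  refine ⟨k, p', hp'm, hPk, hp', hdeg, hdvd, ?_⟩
  -- the cofactor does not vanish at `z`
  set H : ℤ[X] := ∏ j ∈ e.divisors.erase d, cyclotomic j ℤ
  have hH : p' ∣ H ^ Fintype.card n := by
    have h1 : (X ^ e - 1 : ℤ[X]) ∣ cyclotomic d ℤ * H := by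
      rw [← prod_cyclotomic_eq_X_pow_sub_one he0 ℤ]
      by_cases hde : d ∈ e.divisors
      · rw [← Finset.mul_prod_erase _ _ hde]
      · refine dvd_mul_of_dvd_right (dvd_of_eq ?_) _
        show _ = ∏ j ∈ e.divisors.erase d, cyclotomic j ℤ
        rw [Finset.erase_eq_of_notMem hde]
    have h2 : p' ∣ cyclotomic d ℤ ^ Fintype.card n * H ^ Fintype.card n := by
      rw [← mul_pow]; exact hdvd.trans (pow_dvd_pow_of_dvd h1 _)
    exact ((hirr.isRelPrime_iff_not_dvd.2 hp').symm.pow_right).dvd_of_dvd_mul_left h2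
  set f : ℤ →+* ZMod r := Int.castRingHom (ZMod r)
  have hHz : (H.map f).eval z ≠ 0 := by
    rw [Polynomial.map_prod, Polynomial.eval_prod, Finset.prod_ne_zero_iff]
    intro j hj hj0
    obtain ⟨hjd, hje⟩ := Finset.mem_erase.1 hj
    have : NeZero (j : ZMod r) := ⟨fun h0 => hre
      (((ZMod.natCast_eq_zero_iff j r).1 h0).trans (Nat.dvd_of_mem_divisors hje))⟩
    rw [map_cyclotomic] at hj0
    exact hjd (isRoot_cyclotomic_iff.1 hj0).eq_orderOf
  have hp'z : (p'.map f).eval z ≠ 0 := fun h0 => by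
    obtain ⟨c, hc⟩ := Polynomial.map_dvd f hH
    refine hHz (eq_zero_of_pow_eq_zero (n := Fintype.card n) ?_)
    rw [← Polynomial.eval_pow, ← Polynomial.map_pow, hc, eval_mul, h0, zero_mul]
  -- multiplicity
  have hsep : (cyclotomic d (ZMod r)).Separable := by
    have : NeZero (d : ZMod r) := ⟨fun h => hrd ((ZMod.natCast_eq_zero_iff d r).1 h)⟩
    exact separable_cyclotomic d (ZMod r)
  have hmult : (P.map f).rootMultiplicity z ≤ k := by
    have hne : cyclotomic d (ZMod r) ^ k * p'.map f ≠ 0 :=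
      mul_ne_zero (pow_ne_zero _ (cyclotomic_ne_zero d _)) fun h => hp'z (by rw [h, eval_zero])
    rw [← count_roots, hPk, Polynomial.map_mul, Polynomial.map_pow, map_cyclotomic, roots_mul hne,
      roots_pow, Multiset.count_add, Multiset.count_nsmul,
      Multiset.count_eq_zero.2 (fun h => hp'z (mem_roots'.1 h).2), add_zero]
    calc _ ≤ k * 1 := Nat.mul_le_mul_left _ (by
          rw [count_roots]; exact rootMultiplicity_le_one_of_separable hsep z)
      _ = k := mul_one k
  refine le_trans (LinearMap.finrank_eigenspace_le _ _) (le_trans (le_of_eq ?_) hmult)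
  rw [Matrix.charpoly_toLin', show (M.map (Int.cast : ℤ → ZMod r)) = M.map f from rfl,
    Matrix.charpoly_map]

omit [Fact r.Prime] in
/-- A fixed nonzero vector modulo `s` makes `1` a root of the characteristic polynomial. -/
theorem eval_one_of_fixed (M : Matrix n n ℤ) (s : ℕ) [Fact s.Prime] {v : n → ZMod s} (hv : v ≠ 0)
    (hfix : (M.map (Int.cast : ℤ → ZMod s)).mulVec v = v) :
    ((M.charpoly.eval 1 : ℤ) : ZMod s) = 0 := by
  have h : ((M.map (Int.cast : ℤ → ZMod s)).charpoly).eval 1 = 0 := by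
    rw [Matrix.eval_charpoly, ← Matrix.exists_mulVec_eq_zero_iff]
    refine ⟨v, hv, ?_⟩
    rw [Matrix.sub_mulVec, hfix, map_one, Matrix.one_mulVec, sub_self]
  rw [show M.map (Int.cast : ℤ → ZMod s) = M.map (Int.castRingHom (ZMod s)) from rfl,
    Matrix.charpoly_map, Polynomial.eval_map, ← map_one (Int.castRingHom (ZMod s)),
    Polynomial.eval₂_at_apply] at h
  simpa using h

/-- A matrix of finite order is annihilated by a radical of its characteristic polynomial. -/
theorem aeval_eq_zero_of_dvd_pow (M : Matrix n n ℤ) {e : ℕ} (he : 0 < e) (hM : M ^ e = 1) {Y : ℤ[X]}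
    {m : ℕ} (hY : M.charpoly ∣ Y ^ m) : Polynomial.aeval M Y = 0 := by
  set f : ℤ →+* ℚ := Int.castRingHom ℚ
  set Mq : Matrix n n ℚ := f.mapMatrix M with hMq
  have hcp : Mq.charpoly = M.charpoly.map f := Matrix.charpoly_map M f
  have hg1 : minpoly ℚ Mq ∣ (X ^ e - 1 : ℚ[X]) :=
    minpoly.dvd ℚ Mq (by rw [map_sub, map_pow, Polynomial.aeval_X, map_one, hMq, ← map_pow, hM, map_one, sub_self])
  have hsq : Squarefree (minpoly ℚ Mq) := by
    refine Squarefree.squarefree_of_dvd hg1 (Polynomial.Separable.squarefree ?_)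
    exact Polynomial.separable_X_pow_sub_C (1 : ℚ) (by exact_mod_cast he.ne') one_ne_zero
      |> fun h => by simpa using h
  have hdvd : minpoly ℚ Mq ∣ Y.map f := by
    rcases Nat.eq_zero_or_pos m with rfl | hm
    · have h1 : minpoly ℚ Mq ∣ 1 := (minpoly.dvd ℚ Mq (Matrix.aeval_self_charpoly Mq)).trans
        (by rw [hcp]; simpa using Polynomial.map_dvd f hY)
      exact h1.trans (one_dvd _)
    · refine (hsq.dvd_pow_iff_dvd hm.ne').1 ?_
      rw [← Polynomial.map_pow]
      exact (minpoly.dvd ℚ Mq (Matrix.aeval_self_charpoly Mq)).trans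
        (by rw [hcp]; exact Polynomial.map_dvd f hY)
  obtain ⟨c, hc⟩ := hdvd
  have h0 : Polynomial.aeval Mq (Y.map f) = 0 := by rw [hc, map_mul, minpoly.aeval, zero_mul]
  have hinj : Function.Injective (f.mapMatrix : Matrix n n ℤ →+* Matrix n n ℚ) :=
    fun A B h => Matrix.ext fun i j => Int.cast_injective (congrFun (congrFun h i) j)
  refine hinj ?_
  rw [map_zero, ← h0]
  rw [Polynomial.aeval_def, Polynomial.aeval_def, Polynomial.hom_eval₂, Polynomial.eval₂_map, hMq]
  congr 1
  exact RingHom.ext fun x => by simp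

end CfsgLib.Chevalley.Homocyclic
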